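/- Two elements of order three with complementary four-group commutators inside an odd order
group of automorphisms of an elementary abelian 2-group. -/
import Mathlib

set_option autoImplicit false

namespace Cfsg.Agent.Four

abbrev T4 := Bool × Bool × Bool × Bool

def fx (a u : T4) : T4 :=
  (u.2.1 ^^ (u.2.2.1 && a.1) ^^ (u.2.2.2 && a.2.2.1),
    u.1 ^^ u.2.1 ^^ (u.2.2.1 && a.2.1) ^^ (u.2.2.2 && a.2.2.2), u.2.2.1, u.2.2.2)

def sw (u : T4) : T4 := (u.2.2.1, u.2.2.2, u.1, u.2.1)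

def xr (u v : T4) : T4 := (u.1 ^^ v.1, u.2.1 ^^ v.2.1, u.2.2.1 ^^ v.2.2.1, u.2.2.2 ^^ v.2.2.2)

def nz (u : T4) : Bool := u.1 || u.2.1 || u.2.2.1 || u.2.2.2

def wd (a b : T4) : List Bool → T4 → T4
  | [], u => u
  | c :: l, u => cond c (fx a (wd a b l u)) (sw (fx b (sw (wd a b l u))))

def it (f : T4 → T4) : ℕ → T4 → T4
  | 0, u => u
  | n + 1, u => f (it f n u)

def us : List T4 := [(true, false, false, false), (false, true, false, false),
  (false, false, true, false), (false, false, false, true)]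

def ls : List (List Bool) := [[true, false], [true, false, false],
  [true, false, true, true, false, false], [true, false, true, false, false]]

def chk (a b : T4) : Bool := !nz b || ls.any fun l => us.any fun u =>
  nz (xr (it (wd a b l) 3 u) u) && !nz (xr (it (wd a b l) 12 u) u)

theorem tab : ∀ a1 a2 a3 a4 b1 b2 b3 b4 : Bool, chk (a1, a2, a3, a4) (b1, b2, b3, b4) = true := by
  decide +kernel

section

variable {A : Type*} [CommGroup A]

/-- `m ^ b` for a Boolean exponent -/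
def bp (m : A) (b : Bool) : A := cond b m 1

theorem bp_xor (h2 : ∀ a : A, a * a = 1) (m : A) (p q : Bool) : bp m (p ^^ q) = bp m p * bp m q := by
  cases p <;> cases q <;> simp [bp, h2]

theorem bp_mul (m n : A) (p : Bool) : bp (m * n) p = bp m p * bp n p := by
  cases p <;> simp [bp]

theorem bp_bp (m : A) (p q : Bool) : bp (bp m p) q = bp m (q && p) := by
  cases p <;> cases q <;> simp [bp]

theorem map_bp (σ : MulAut A) (m : A) (p : Bool) : σ (bp m p) = bp (σ m) p := by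
  cases p <;> simp [bp]

def ψ (v1 v2 w1 w2 : A) (u : T4) : A := bp v1 u.1 * bp v2 u.2.1 * (bp w1 u.2.2.1 * bp w2 u.2.2.2)

theorem ψ_sw (v1 v2 w1 w2 : A) (u : T4) : ψ v1 v2 w1 w2 (sw u) = ψ w1 w2 v1 v2 u := by
  simp only [ψ, sw]; ac_rfl

theorem ψ_xr (h2 : ∀ a : A, a * a = 1) (v1 v2 w1 w2 : A) (u v : T4) :
    ψ v1 v2 w1 w2 (xr u v) = ψ v1 v2 w1 w2 u * ψ v1 v2 w1 w2 v := by
  simp only [ψ, xr, bp_xor h2]; ac_rfl

theorem ψ_fx (h2 : ∀ a : A, a * a = 1) {σ : MulAut A} {v1 v2 w1 w2 : A} {a : T4} (e1 : σ v1 = v2)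
    (e2 : σ v2 = v1 * v2) (e3 : σ w1 = bp v1 a.1 * bp v2 a.2.1 * w1)
    (e4 : σ w2 = bp v1 a.2.2.1 * bp v2 a.2.2.2 * w2) (u : T4) :
    σ (ψ v1 v2 w1 w2 u) = ψ v1 v2 w1 w2 (fx a u) := by
  simp only [ψ, fx, bp_xor h2, map_mul, map_bp, e1, e2, e3, e4, bp_mul, bp_bp]; ac_rfl

theorem ψ_of_nz (v1 v2 w1 w2 : A) {u : T4} (h : nz u = false) : ψ v1 v2 w1 w2 u = 1 := by
  obtain ⟨p, q, r, s⟩ := u
  simp only [nz, Bool.or_eq_false_iff] at h
  obtain ⟨⟨⟨rfl, rfl⟩, rfl⟩, rfl⟩ := h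
  simp [ψ, bp]

theorem pair_abs (h2 : ∀ a : A, a * a = 1) (L : Subgroup (MulAut A)) (hL : ∀ g ∈ L, Odd (orderOf g))
    {σ τ : MulAut A} (hσ : σ ∈ L) (hτ : τ ∈ L) {v1 v2 w1 w2 : A} {a b : T4} (e1 : σ v1 = v2)
    (e2 : σ v2 = v1 * v2) (e3 : σ w1 = bp v1 a.1 * bp v2 a.2.1 * w1)
    (e4 : σ w2 = bp v1 a.2.2.1 * bp v2 a.2.2.2 * w2) (f1 : τ w1 = w2)
    (f2 : τ w2 = w1 * w2) (f3 : τ v1 = bp w1 b.1 * bp w2 b.2.1 * v1)
    (f4 : τ v2 = bp w1 b.2.2.1 * bp w2 b.2.2.2 * v2)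
    (hi : ∀ u, ψ v1 v2 w1 w2 u = 1 → nz u = false) : τ v1 = v1 ∧ τ v2 = v2 := by
  have ht := tab a.1 a.2.1 a.2.2.1 a.2.2.2 b.1 b.2.1 b.2.2.1 b.2.2.2
  change chk a b = true at ht
  simp only [chk, Bool.or_eq_true, Bool.not_eq_eq_eq_not, Bool.not_true, List.any_eq_true,
    Bool.and_eq_true] at ht
  rcases ht with ht | ⟨l, -, u, -, h3, h12⟩
  · obtain ⟨p, q, r, s⟩ := b
    simp only [nz, Bool.or_eq_false_iff] at ht
    obtain ⟨⟨⟨rfl, rfl⟩, rfl⟩, rfl⟩ := ht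
    simpa [bp] using And.intro f3 f4
  exfalso
  have hw : ∀ l : List Bool, ∃ g ∈ L, ∀ u, g (ψ v1 v2 w1 w2 u) = ψ v1 v2 w1 w2 (wd a b l u) := by
    intro l
    induction l with
    | nil => exact ⟨1, L.one_mem, fun u => rfl⟩
    | cons c l ih =>
      obtain ⟨g, hg, h⟩ := ih
      cases c
      · refine ⟨τ * g, L.mul_mem hτ hg, fun u => ?_⟩
        rw [MulAut.mul_apply, h]
        simp only [wd, cond_false]
        rw [ψ_sw, ← ψ_fx h2 f1 f2 f3 f4, ψ_sw]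
      · refine ⟨σ * g, L.mul_mem hσ hg, fun u => ?_⟩
        rw [MulAut.mul_apply, h, ψ_fx h2 e1 e2 e3 e4]
        rfl
  obtain ⟨g, hg, h⟩ := hw l
  have hn : ∀ n, (g ^ n) (ψ v1 v2 w1 w2 u) = ψ v1 v2 w1 w2 (it (wd a b l) n u) := by
    intro n
    induction n with
    | zero => rfl
    | succ n ih => rw [pow_succ', MulAut.mul_apply, ih, h]; rfl
  have hinv : ∀ a b : A, a * b = 1 ↔ a = b := fun a b =>
    ⟨fun h => by rw [← mul_one a, ← h2 b, ← mul_assoc, h, one_mul], fun h => h ▸ h2 a⟩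
  have k12 : g ^ 12 ∈ MulAction.stabilizer (MulAut A) (ψ v1 v2 w1 w2 u) := by
    rw [MulAction.mem_stabilizer_iff, MulAut.smul_def, hn, ← hinv, ← ψ_xr h2]
    exact ψ_of_nz _ _ _ _ h12
  have k3 : g ^ 3 ∈ MulAction.stabilizer (MulAut A) (ψ v1 v2 w1 w2 u) := by
    have ho : (4 : ℕ).Coprime (orderOf (g ^ 3)) :=
      Nat.Coprime.pow_left 2 (Nat.coprime_two_left.mpr (hL _ (L.pow_mem hg 3)))
    obtain ⟨m, hm⟩ := exists_pow_eq_self_of_coprime ho
    rw [← hm, ← pow_mul g]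
    exact Subgroup.pow_mem _ k12 m
  rw [MulAction.mem_stabilizer_iff, MulAut.smul_def, hn, ← hinv, ← ψ_xr h2] at k3
  rw [hi _ k3] at h3
  exact Bool.false_ne_true h3

end

end Cfsg.Agent.Four
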