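/- Elements of odd order moving only a four-group of an elementary abelian normal 2-subgroup. -/
import Cfsg.Agent.Lib.Four.Tab
import Cfsg.Agent.FT.BG04

set_option autoImplicit false

namespace Cfsg.Agent.Four

open Subgroup Cfsg.Agent.Lib.Core Cfsg.Agent.FT
open scoped Cfsg.Agent.Lib.Glaub commutatorElement

variable {G : Type*} [Group G] [Finite G] {M H K W : Subgroup G} {x y z g h b c d v : G}

/-- the commutator of `M` with the cyclic group of `y` -/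
def V (M : Subgroup G) (y : G) : Subgroup G := ⁅zpowers y, M⁆

structure Ctx (M H : Subgroup G) : Prop where
  nrm : M.Normal
  ab : IsElementaryAbelian 2 M
  odd : Odd (Nat.card H)

structure Good (M H : Subgroup G) (y : G) : Prop where
  mem : y ∈ H
  cube : y ^ 3 ∈ 𝐂(M)
  card : Nat.card (V M y) = 4

theorem four_le (hW : Nat.card W = 4) (hc : c ∈ W) (hd : d ∈ W) (hc1 : c ≠ 1) (hd1 : d ≠ 1)
    (hcd : c ≠ d) (h1 : c ∈ K) (h2 : d ∈ K) : W ≤ K := by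
  have h3 : Nat.card ↥(W ⊓ K) ∣ 2 ^ 2 := (card_dvd_of_le inf_le_left).trans (dvd_of_eq hW)
  have h4 : 3 ≤ Nat.card ↥(W ⊓ K) := by
    have h5 : ({1, c, d} : Set G).ncard = 3 :=
      Set.ncard_eq_three.mpr ⟨1, c, d, hc1.symm, hd1.symm, hcd, rfl⟩
    rw [← h5]
    refine Set.ncard_le_ncard (t := ((W ⊓ K : Subgroup G) : Set G)) ?_
    rintro t (rfl | rfl | rfl)
    exacts [one_mem _, ⟨hc, h1⟩, ⟨hd, h2⟩]
  obtain ⟨k, hk, e⟩ := (Nat.dvd_prime_pow Nat.prime_two).mp h3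
  have h6 : Nat.card ↥(W ⊓ K) = 4 := by
    interval_cases k <;> omega
  exact inf_eq_left.mp (eq_of_le_of_card_ge inf_le_left (by rw [hW, h6]))

theorem four_mem (hW : Nat.card W = 4) (hb : b ∈ W) (hc : c ∈ W) (hd : d ∈ W) (hb1 : b ≠ 1)
    (hc1 : c ≠ 1) (hd1 : d ≠ 1) (hbc : b ≠ c) (hbd : b ≠ d) (hcd : c ≠ d) (hv : v ∈ W) :
    v = 1 ∨ v = b ∨ v = c ∨ v = d := by
  have h5 : ({1, b, c, d} : Set G).ncard = 4 := by
    rw [Set.ncard_insert_of_notMem (by simp [hb1.symm, hc1.symm, hd1.symm]),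
      Set.ncard_eq_three.mpr ⟨b, c, d, hbc, hbd, hcd, rfl⟩]
  have h6 : ({1, b, c, d} : Set G) = W := by
    refine Set.eq_of_subset_of_ncard_le ?_ (by rw [h5]; exact hW.le)
    rintro t (rfl | rfl | rfl | rfl)
    exacts [one_mem _, hb, hc, hd]
  have : v ∈ ({1, b, c, d} : Set G) := h6 ▸ hv
  simpa using this

namespace Ctx

omit [Finite G] in
theorem norm (C : Ctx M H) (g : G) : g ∈ 𝐍(M) := by
  have := C.nrm
  rw [normalizer_eq_top]; exact mem_top g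

omit [Finite G] in
theorem cj_V (C : Ctx M H) (g y : G) : cj(g, V M y) = V M (g * y * g⁻¹) := by
  rw [V, cj_comm, cj_zpowers, cj_eq_of_mem_norm (C.norm g), V]

omit [Finite G] in
theorem V_le (C : Ctx M H) (y : G) : V M y ≤ M := comm_le_right fun g _ => C.norm g

omit [Finite G] in
theorem conj (C : Ctx M H) (hy : Good M H y) (hh : h ∈ H) : Good M H (h * y * h⁻¹) := by
  refine ⟨H.mul_mem (H.mul_mem hh hy.mem) (H.inv_mem hh), ?_, by rw [← C.cj_V, card_cj, hy.card]⟩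
  rw [conj_pow, ← cj_eq_of_mem_norm (C.norm h), ← cj_cent, conj_mem_cj]
  exact hy.cube

omit [Finite G] in
theorem mem_norm (h1 : V M y ≤ W) (h2 : W ≤ M) : y ∈ 𝐍(W) :=
  le_norm_of_comm_le (A := M) (H := zpowers y) (by rw [commutator_comm]; exact h1) h2 (mem_zpowers y)

omit [Finite G] in
theorem conj_mem (C : Ctx M H) (hv : v ∈ V M y) : y * v * y⁻¹ ∈ V M y :=
  (mem_normalizer_iff.mp (mem_norm le_rfl (C.V_le y)) v).mp hv

omit [Finite G] in
theorem sq (C : Ctx M H) (hv : v ∈ M) : v * v = 1 := by rw [← pow_two]; exact C.ab.2 v hv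

theorem eq_one (C : Ctx M H) (hy : Good M H y) (hv : v ∈ V M y) (h : y ∈ C1 v) : v = 1 := by
  have h1 := inf_centralizer_inf_commutator_eq_bot (A := zpowers y) C.ab.1 (fun g _ => C.norm g)
    (by
      obtain ⟨n, hn⟩ := IsPGroup.iff_card.mp (abelem_isPGroup C.ab)
      rw [hn]
      exact Nat.Coprime.pow_right n (Nat.coprime_two_right.mpr
        (odd_card_of_le C.odd (zpowers_le.mpr hy.mem))))
  rw [commutator_comm, cent_zpowers] at h1
  exact mem_bot.mp (h1 ▸ ⟨mem_C1_comm.mp h, hv⟩)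

theorem conj_ne (C : Ctx M H) (hy : Good M H y) (hv : v ∈ V M y) (h1 : v ≠ 1) : v ≠ y * v * y⁻¹ :=
  fun e => h1 (C.eq_one hy hv (mem_C1_iff_conj.mpr e.symm))

theorem conj_ne' (C : Ctx M H) (hy : Good M H y) (hv : v ∈ V M y) (h1 : v ≠ 1) :
    v ≠ y * (y * v * y⁻¹) * y⁻¹ := fun e => h1 <| C.eq_one hy hv <| by
  have h2 : y * y ∈ C1 v := mem_C1_iff_conj.mpr (Eq.trans (by group) e.symm)
  have h3 : y ^ 3 ∈ C1 v := cent_le_C1 (C.V_le y hv) hy.cube
  have := (C1 v).mul_mem h3 ((C1 v).inv_mem h2)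
  rwa [show y ^ 3 * (y * y)⁻¹ = y by group] at this

theorem mem_V (C : Ctx M H) (hy : Good M H y) (hb : b ∈ V M y) (h1 : b ≠ 1) (hv : v ∈ V M y) :
    v = 1 ∨ v = b ∨ v = y * b * y⁻¹ ∨ v = y * (y * b * y⁻¹) * y⁻¹ :=
  four_mem hy.card hb (C.conj_mem hb) (C.conj_mem (C.conj_mem hb)) h1 (conj_ne_one.mpr h1)
    (conj_ne_one.mpr (conj_ne_one.mpr h1)) (C.conj_ne hy hb h1) (C.conj_ne' hy hb h1)
    (C.conj_ne hy (C.conj_mem hb) (conj_ne_one.mpr h1)) hv

theorem conj_conj (C : Ctx M H) (hy : Good M H y) (hb : b ∈ V M y) (h1 : b ≠ 1) :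
    y * (y * b * y⁻¹) * y⁻¹ = b * (y * b * y⁻¹) := by
  rcases C.mem_V hy hb h1 ((V M y).mul_mem hb (C.conj_mem hb)) with e | e | e | e
  · refine absurd ?_ (C.conj_ne hy hb h1)
    rw [← C.sq (C.V_le y hb)] at e
    exact (mul_left_cancel e).symm
  · exact absurd (mul_eq_left.mp e) (conj_ne_one.mpr h1)
  · exact absurd (mul_eq_right.mp e) h1
  · exact e.symm

theorem exists_bp (C : Ctx M H) (hy : Good M H y) (hb : b ∈ V M y) (h1 : b ≠ 1) (hv : v ∈ V M y) :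
    ∃ p q : Bool, v = cond p b 1 * cond q (y * b * y⁻¹) 1 := by
  rcases C.mem_V hy hb h1 hv with e | e | e | e
  · exact ⟨false, false, by simpa using e⟩
  · exact ⟨true, false, by simpa using e⟩
  · exact ⟨false, true, by simpa using e⟩
  · exact ⟨true, true, e.trans (C.conj_conj hy hb h1)⟩

theorem bp_eq_one (C : Ctx M H) (hy : Good M H y) (hb : b ∈ V M y) (h1 : b ≠ 1) {p q : Bool}
    (e : cond p b 1 * cond q (y * b * y⁻¹) 1 = 1) : p = false ∧ q = false := by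
  cases p <;> cases q
  · exact ⟨rfl, rfl⟩
  · exact absurd (by simpa using e) h1
  · exact absurd (by simpa using e) h1
  · refine absurd ((C.conj_conj hy hb h1).trans e) (conj_ne_one.mpr (conj_ne_one.mpr h1))

omit [Finite G] in
theorem comm_mem (hv : v ∈ M) : y * v * y⁻¹ * v⁻¹ ∈ V M y :=
  commutator_mem_commutator (mem_zpowers y) hv

theorem V_ne_bot (hy : Good M H y) : V M y ≠ ⊥ := fun e => by
  have := hy.card
  rw [e, card_bot] at this
  omega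

theorem not_mem_cent (C : Ctx M H) (hy : Good M H y) : y ∉ 𝐂(V M y) := fun h => by
  obtain ⟨v, hv, h1⟩ := exists_ne_one (V_ne_bot hy)
  exact h1 (C.eq_one hy hv (cent_le_C1 hv h))

/-- the pair lemma -/
theorem pair (C : Ctx M H) (hx : Good M H x) (hy : Good M H y) (h : V M x ⊓ V M y = ⊥) :
    y ∈ 𝐂(V M x) := by
  have := C.nrm
  letI : CommGroup M := { (inferInstance : Group M) with mul_comm := C.ab.1.is_comm.comm }
  obtain ⟨v, hv, hv1⟩ := exists_ne_one (V_ne_bot hx)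
  obtain ⟨w, hw, hw1⟩ := exists_ne_one (V_ne_bot hy)
  have hvM := C.V_le x hv
  have hwM := C.V_le y hw
  have hvM' := C.V_le x (C.conj_mem hv)
  have hwM' := C.V_le y (C.conj_mem hw)
  obtain ⟨a1, a2, ha⟩ := C.exists_bp hx hv hv1 (comm_mem (y := x) hwM)
  obtain ⟨a3, a4, ha'⟩ := C.exists_bp hx hv hv1 (comm_mem (y := x) hwM')
  obtain ⟨b1, b2, hb⟩ := C.exists_bp hy hw hw1 (comm_mem (y := y) hvM)
  obtain ⟨b3, b4, hb'⟩ := C.exists_bp hy hw hw1 (comm_mem (y := y) hvM')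
  rw [mul_inv_eq_iff_eq_mul] at ha ha' hb hb'
  have hco : ∀ (m : M) (p : Bool), ((bp m p : M) : G) = cond p (m : G) 1 := fun m p => by
    cases p <;> rfl
  have key := pair_abs (A := M) (fun a => Subtype.ext (C.sq a.2)) (H.map MulAut.conjNormal)
    (by
      rintro _ ⟨g, hg, rfl⟩
      exact (C.odd.of_dvd_nat (orderOf_dvd_card hg)).of_dvd_nat (orderOf_map_dvd _ g))
    (σ := MulAut.conjNormal x) (τ := MulAut.conjNormal y) (mem_map_of_mem _ hx.mem)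
    (mem_map_of_mem _ hy.mem) (v1 := ⟨v, hvM⟩) (v2 := ⟨_, hvM'⟩) (w1 := ⟨w, hwM⟩) (w2 := ⟨_, hwM'⟩)
    (a := (a1, a2, a3, a4)) (b := (b1, b2, b3, b4)) rfl (Subtype.ext (C.conj_conj hx hv hv1))
    (Subtype.ext (by simpa [hco] using ha)) (Subtype.ext (by simpa [hco] using ha'))
    rfl (Subtype.ext (C.conj_conj hy hw hw1))
    (Subtype.ext (by simpa [hco] using hb)) (Subtype.ext (by simpa [hco] using hb'))
    (by
      rintro ⟨p, q, r, s⟩ e
      have e1 : cond p v 1 * cond q (x * v * x⁻¹) 1 * (cond r w 1 * cond s (y * w * y⁻¹) 1) = 1 := by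
        simpa [ψ, hco] using congrArg Subtype.val e
      have m1 : cond p v 1 * cond q (x * v * x⁻¹) 1 ∈ V M x :=
        (V M x).mul_mem (by cases p; exacts [one_mem _, hv])
          (by cases q; exacts [one_mem _, C.conj_mem hv])
      have m2 : cond r w 1 * cond s (y * w * y⁻¹) 1 ∈ V M y :=
        (V M y).mul_mem (by cases r; exacts [one_mem _, hw])
          (by cases s; exacts [one_mem _, C.conj_mem hw])
      have e2 : cond p v 1 * cond q (x * v * x⁻¹) 1 = 1 := by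
        refine mem_bot.mp (h ▸ ⟨m1, ?_⟩)
        rw [eq_inv_of_mul_eq_one_left e1]
        exact (V M y).inv_mem m2
      rw [e2, one_mul] at e1
      obtain ⟨rfl, rfl⟩ := C.bp_eq_one hx hv hv1 e2
      obtain ⟨rfl, rfl⟩ := C.bp_eq_one hy hw hw1 e1
      rfl)
  have k1 : y * v * y⁻¹ = v := congrArg Subtype.val key.1
  have k2 : y * (x * v * x⁻¹) * y⁻¹ = x * v * x⁻¹ := congrArg Subtype.val key.2
  exact le_C1_iff.mp (four_le hx.card hv (C.conj_mem hv) hv1 (conj_ne_one.mpr hv1) (C.conj_ne hx hv hv1)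
    (mem_C1_comm.mp (mem_C1_iff_conj.mpr k1)) (mem_C1_comm.mp (mem_C1_iff_conj.mpr k2)))

theorem triple_aux (C : Ctx M H) (hx : Good M H x) (hy : Good M H y) (h1 : V M x ⊓ V M y ≠ ⊥)
    (h2 : V M x ≠ V M y) (hc : c ∈ V M x) (hc1 : c ≠ 1) :
    ∃ u, Good M H u ∧ c ∈ V M u ∧ V M u ≤ V M x ⊔ V M y ∧ ¬ V M x ≤ V M u := by
  obtain ⟨b, hb, hb1⟩ := exists_ne_one h1
  have hn : x ∈ 𝐍(V M x ⊔ V M y) := mem_norm le_sup_left (sup_le (C.V_le x) (C.V_le y))
  have hn' : x ∈ 𝐍(V M x) := mem_norm le_rfl (C.V_le x)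
  have step : ∀ c u, (Good M H u ∧ c ∈ V M u ∧ V M u ≤ V M x ⊔ V M y ∧ ¬ V M x ≤ V M u) →
      (Good M H (x * u * x⁻¹) ∧ x * c * x⁻¹ ∈ V M (x * u * x⁻¹) ∧ V M (x * u * x⁻¹) ≤ V M x ⊔ V M y ∧
        ¬ V M x ≤ V M (x * u * x⁻¹)) := fun c u ⟨k1, k2, k3, k4⟩ => by
    refine ⟨C.conj k1 hx.mem, ?_, ?_, fun k => k4 ?_⟩
    · rw [← C.cj_V]; exact conj_mem_cj.mpr k2
    · rw [← C.cj_V]; exact cj_le_of_le k3 hn
    · rwa [← C.cj_V x u, ← cj_eq_of_mem_norm hn', cj_le_cj] at k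
  have base : Good M H y ∧ b ∈ V M y ∧ V M y ≤ V M x ⊔ V M y ∧ ¬ V M x ≤ V M y :=
    ⟨hy, hb.2, le_sup_right, fun k => h2 (eq_of_le_of_card_ge k (by rw [hx.card, hy.card]))⟩
  rcases C.mem_V hx hb.1 hb1 hc with e | rfl | rfl | rfl
  exacts [absurd e hc1, ⟨_, base⟩, ⟨_, step _ _ base⟩, ⟨_, step _ _ (step _ _ base)⟩]

/-- the triple lemma -/
theorem triple (C : Ctx M H) (hx : Good M H x) (hy : Good M H y) (hz : Good M H z)
    (h1 : V M x ⊓ V M y ≠ ⊥) (h2 : V M x ≠ V M y) (h3 : V M x ⊓ V M z ≠ ⊥) :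
    V M z ≤ V M x ⊔ V M y := by
  obtain ⟨c, hc, hc1⟩ := exists_ne_one h3
  have key : ∀ c' ∈ V M x, c' ≠ 1 → c ≠ c' → z ∈ C1 c' ∨ V M z ≤ V M x ⊔ V M y := by
    intro c' k1 k2 k3
    obtain ⟨u, hu, m1, m2, m3⟩ := C.triple_aux hx hy h1 h2 k1 k2
    by_cases e : V M u ⊓ V M z = ⊥
    · exact Or.inl (cent_le_C1 m1 (C.pair hu hz e))
    · obtain ⟨d, hd, hd1⟩ := exists_ne_one e
      refine Or.inr (four_le hz.card hc.2 hd.2 hc1 hd1 (fun e' => m3 ?_) (mem_sup_left hc.1) (m2 hd.1))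
      exact four_le hx.card hc.1 k1 hc1 k2 k3 (e' ▸ hd.1) m1
  have n1 := conj_ne_one (g := x).mpr hc1
  have n2 := conj_ne_one (g := x).mpr n1
  rcases key _ (C.conj_mem hc.1) n1 (C.conj_ne hx hc.1 hc1) with k1 | k1
  swap; · exact k1
  rcases key _ (C.conj_mem (C.conj_mem hc.1)) n2 (C.conj_ne' hx hc.1 hc1) with k2 | k2
  swap; · exact k2
  have := four_le hx.card (C.conj_mem hc.1) (C.conj_mem (C.conj_mem hc.1)) n1 n2
    (C.conj_ne hx (C.conj_mem hc.1) n1) (mem_C1_comm.mp k1) (mem_C1_comm.mp k2)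
  exact absurd (C.eq_one hz hc.2 (mem_C1_comm.mp (this hc.1))) hc1

theorem card_sup (C : Ctx M H) (hx : Good M H x) (hy : Good M H y) (h1 : V M x ⊓ V M y ≠ ⊥) :
    Nat.card ↥(V M x ⊔ V M y) ∣ 8 := by
  have h2 := card_sup_mul_card_inf (le_norm_of_isComm C.ab.1 (C.V_le x) (C.V_le y))
  have h3 : Nat.card ↥(V M x ⊓ V M y) ∣ 2 ^ 2 := (card_dvd_of_le inf_le_left).trans (dvd_of_eq hx.card)
  obtain ⟨k, hk, e⟩ := (Nat.dvd_prime_pow Nat.prime_two).mp h3
  rw [hx.card, hy.card, e] at h2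
  have h4 : k ≠ 0 := fun k0 => h1 (card_eq_one.mp (by rw [e, k0, pow_zero]))
  interval_cases k
  · exact absurd rfl h4
  · exact dvd_of_eq (by omega)
  · exact (dvd_of_eq (by omega : _ = 4)).trans (by norm_num)

theorem trans (C : Ctx M H) (hx : Good M H x) (hy : Good M H y) (hz : Good M H z)
    (h1 : V M x ⊓ V M y ≠ ⊥) (h3 : V M y ⊓ V M z ≠ ⊥) : V M x ⊓ V M z ≠ ⊥ := by
  by_cases e : V M y = V M x
  · exact e ▸ h3
  intro h
  rw [inf_comm] at h1
  have k1 := C.triple hy hx hz h1 e h3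
  have k2 := Nat.le_of_dvd (by norm_num) (C.card_sup hy hx h1)
  have k3 := card_sup_mul_card_inf (le_norm_of_isComm C.ab.1 (C.V_le x) (C.V_le z))
  have k4 := card_le_of_le (sup_le le_sup_right k1)
  rw [hx.card, hz.card, h, card_bot] at k3
  omega

end Ctx

end Cfsg.Agent.Four
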