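/- The block kernel and the rank three subgroup (S4404). -/
import Cfsg.Agent.Lib.Four.Good

set_option autoImplicit false

namespace Cfsg.Agent.Four

open Subgroup Cfsg.Agent.Lib.Core Cfsg.Agent.FT
open scoped Cfsg.Agent.Lib.Glaub commutatorElement

variable {G : Type*} [Group G] [Finite G] {M H K W F P E : Subgroup G} {x y z g h : G} {r : ℕ}

theorem card_modEq_inf_cent [Fact r.Prime] (hP : IsPGroup r P) (hn : P ≤ 𝐍(W)) :
    Nat.card W ≡ Nat.card ↥(W ⊓ 𝐂(P)) [MOD r] := by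
  letI : MulAction P W :=
    { smul := fun v x => ⟨v * x * (v : G)⁻¹, (mem_normalizer_iff.mp (hn v.2) _).mp x.2⟩
      one_smul := fun x => Subtype.ext (show (1 : G) * x * 1⁻¹ = x by group)
      mul_smul := fun a b x => Subtype.ext
        (show (a * b : G) * x * (a * b : G)⁻¹ = a * (b * x * (b : G)⁻¹) * (a : G)⁻¹ by group) }
  rw [← Nat.card_eq_of_bijective
    (fun x : MulAction.fixedPoints P W => (⟨x, x.1.2, mem_cent_iff.mpr fun v hv => mul_inv_eq_iff_eq_mul.mp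
      (congrArg Subtype.val (x.2 ⟨v, hv⟩))⟩ : ↥(W ⊓ 𝐂(P))))
    ⟨fun x y e => Subtype.ext (Subtype.ext (congrArg (fun z : ↥(W ⊓ 𝐂(P)) => z.1) e)),
      fun x => ⟨⟨⟨x, x.2.1⟩, fun v => Subtype.ext
      (mul_inv_eq_iff_eq_mul.mpr (mem_cent_iff.mp x.2.2 v v.2))⟩, rfl⟩⟩]
  exact hP.card_modEq_card_fixedPoints W

theorem relIndex_C1_le (hn : K ≤ 𝐍(W)) (hx : x ∈ W) : (C1 x).relIndex K ≤ Nat.card W := by
  refine Nat.card_le_card_of_injective (fun c : K ⧸ (C1 x).subgroupOf K =>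
    (⟨(c.out : G) * x * (c.out : G)⁻¹, (mem_normalizer_iff.mp (hn c.out.2) _).mp hx⟩ : W)) fun c d e => ?_
  rw [← c.out_eq', ← d.out_eq', QuotientGroup.eq, mem_subgroupOf, mem_C1_iff_conj]
  have e' : (c.out : G) * x * (c.out : G)⁻¹ = (d.out : G) * x * (d.out : G)⁻¹ := congrArg Subtype.val e
  simp only [coe_mul, coe_inv, mul_inv_rev, inv_inv]
  calc _ = (c.out : G)⁻¹ * ((d.out : G) * x * (d.out : G)⁻¹) * c.out := by group
    _ = x := by rw [← e']; group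

theorem small_cent [hr : Fact r.Prime] (h2 : r ≠ 2) (hF : IsPGroup r F) (hW : Nat.card W ∣ 8)
    (hn : F ≤ 𝐍(W)) : 𝐂(W).relIndex F ≤ r := by
  have h3 : 3 ≤ r := by have := hr.out.two_le; omega
  by_contra hc
  have hW8 := Nat.le_of_dvd (by norm_num) hW
  have key : ∀ w ∈ W, w ≠ 1 → r = 3 ∧ Nat.card W = 8 ∧ Nat.card ↥(W ⊓ 𝐂(F ⊓ C1 w)) = 2 := by
    intro w hw h1
    have k1 : (C1 w).relIndex F ≤ r := by
      obtain ⟨n, e⟩ := exists_relIndex_eq_pow hF (C1 w)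
      have k := (relIndex_C1_le hn hw).trans hW8
      rw [e] at k ⊢
      rcases Nat.lt_or_ge n 2 with l | l
      · exact (Nat.pow_le_pow_right (by omega) (by omega : n ≤ 1)).trans (pow_one r).le
      · have := (Nat.pow_le_pow_left h3 2).trans (Nat.pow_le_pow_right (by omega) l)
        omega
    have k2 : W ⊓ 𝐂(F ⊓ C1 w) ≠ W := fun e => hc <| by
      refine le_trans ?_ k1
      rw [← inf_relIndex_left F (C1 w)]
      exact relIndex_le_of_le_left (cent_comm.mp (inf_eq_left.mp e)) (relIndex_ne_zero _ _)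
    have k3 := card_modEq_inf_cent (W := W) (hF.to_le (inf_le_left : F ⊓ C1 w ≤ F)) (inf_le_left.trans hn)
    have k4 : W ⊓ 𝐂(F ⊓ C1 w) ≠ ⊥ := ne_bot_of_mem ⟨hw, le_C1_iff.mp inf_le_right⟩ h1
    have k5 : Nat.card ↥(W ⊓ 𝐂(F ⊓ C1 w)) < Nat.card W :=
      lt_of_le_of_ne (card_le_of_le inf_le_left) fun e => k2 (eq_of_le_of_card_ge inf_le_left e.ge)
    obtain ⟨a, ha, ea⟩ := (Nat.dvd_prime_pow Nat.prime_two (m := 3)).mp hW
    obtain ⟨b, hb, eb⟩ := (Nat.dvd_prime_pow Nat.prime_two (m := 3)).mp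
      ((card_dvd_of_le (inf_le_left : W ⊓ 𝐂(F ⊓ C1 w) ≤ W)).trans hW)
    have k6 : b ≠ 0 := fun e => k4 (card_eq_one.mp (by rw [eb, e, pow_zero]))
    have k7 := (Nat.modEq_iff_dvd' k5.le).mp k3.symm
    rw [ea, eb] at k5 k7 ⊢
    have k8 := Nat.le_of_dvd (by omega) k7
    have k9 : r ≠ 4 := fun e => absurd (e ▸ hr.out) (by norm_num)
    have k10 : r ≠ 6 := fun e => absurd (e ▸ hr.out) (by norm_num)
    have k11 : r ≤ 6 := by interval_cases a <;> interval_cases b <;> omega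
    interval_cases a <;> interval_cases b <;> interval_cases r <;> omega
  have h1 : W ≠ ⊥ := fun e => hc (by rw [e, cent_bot, relIndex_top_left]; omega)
  obtain ⟨w, hw, hw1⟩ := exists_ne_one h1
  obtain ⟨rfl, h8, -⟩ := key w hw hw1
  have k1 := card_modEq_inf_cent hF hn
  have k2 : W ⊓ 𝐂(F) ≠ ⊥ := fun e => by
    rw [e, card_bot, h8] at k1
    exact absurd k1 (by decide)
  obtain ⟨c, hcW, hc1⟩ := exists_ne_one k2
  have k3 : (W : Set G) ⊆ {1, c} := fun v hv => by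
    by_contra hv1
    simp only [Set.mem_insert_iff, Set.mem_singleton_iff, not_or] at hv1
    have k4 := (key v hv hv1.1).2.2
    have h5 : ({1, c, v} : Set G).ncard = 3 :=
      Set.ncard_eq_three.mpr ⟨1, c, v, hc1.symm, Ne.symm hv1.1, Ne.symm hv1.2, rfl⟩
    have : ({1, c, v} : Set G).ncard ≤ Nat.card ↥(W ⊓ 𝐂(F ⊓ C1 v)) := by
      refine Set.ncard_le_ncard (t := ((W ⊓ 𝐂(F ⊓ C1 v) : Subgroup G) : Set G)) ?_
      rintro t (rfl | rfl | rfl)
      exacts [one_mem _, ⟨hcW.1, cent_anti inf_le_left hcW.2⟩, ⟨hv, le_C1_iff.mp inf_le_right⟩]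
    omega
  have k4 := Set.ncard_le_ncard k3
  rw [Set.ncard_pair hc1.symm] at k4
  have : Nat.card W ≤ 2 := k4
  omega

/-- conjugates of `x` under `H` -/
def Om (H : Subgroup G) (x y : G) : Prop := ∃ h ∈ H, y = h * x * h⁻¹

omit [Finite G] in
theorem Om.conj (hy : Om H x y) (hh : h ∈ H) : Om H x (h * y * h⁻¹) := by
  obtain ⟨g, hg, rfl⟩ := hy
  exact ⟨h * g, H.mul_mem hh hg, by group⟩

omit [Finite G] in
theorem Om.good (C : Ctx M H) (hx : Good M H x) (hy : Om H x y) : Good M H y := by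
  obtain ⟨g, hg, rfl⟩ := hy
  exact C.conj hx hg

omit [Finite G] in
theorem Om.self (H : Subgroup G) (x : G) : Om H x x := ⟨1, H.one_mem, by group⟩

/-- same block -/
def R (M : Subgroup G) (y z : G) : Prop := V M y ⊓ V M z ≠ ⊥

omit [Finite G] in
theorem R.symm (h : R M y z) : R M z y := by rwa [R, inf_comm]

theorem R.refl (hy : Good M H y) : R M y y := by rw [R, inf_idem]; exact Ctx.V_ne_bot hy

omit [Finite G] in
theorem R.conj (C : Ctx M H) (h : R M y z) (g : G) : R M (g * y * g⁻¹) (g * z * g⁻¹) := by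
  rwa [R, ← C.cj_V, ← C.cj_V, ← cj_inf, cj_ne_bot]

/-- the kernel of the action on the blocks -/
def B (C : Ctx M H) (hx : Good M H x) : Subgroup G where
  carrier := {h | h ∈ H ∧ ∀ y, Om H x y → R M (h * y * h⁻¹) y}
  one_mem' := ⟨H.one_mem, fun y hy => by simpa using R.refl (hy.good C hx)⟩
  mul_mem' := fun {a b} ha hb => ⟨H.mul_mem ha.1 hb.1, fun y hy => by
    rw [show a * b * y * (a * b)⁻¹ = a * (b * y * b⁻¹) * a⁻¹ by group]
    exact C.trans (((hy.conj hb.1).conj ha.1).good C hx) ((hy.conj hb.1).good C hx) (hy.good C hx)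
      (ha.2 _ (hy.conj hb.1)) (hb.2 y hy)⟩
  inv_mem' := fun {a} ha => ⟨H.inv_mem ha.1, fun y hy => by
    have := (ha.2 _ (hy.conj (H.inv_mem ha.1))).symm
    rwa [show a * (a⁻¹ * y * a⁻¹⁻¹) * a⁻¹ = y by group] at this⟩

variable (C : Ctx M H) (hx : Good M H x)

theorem mem_B : h ∈ B C hx ↔ h ∈ H ∧ ∀ y, Om H x y → R M (h * y * h⁻¹) y := Iff.rfl

theorem B_nrm : B C hx ⊲ H := by
  refine ⟨fun h hh => hh.1, fun h hh => mem_normalizer_of_conj_mem fun b hb => ?_⟩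
  refine ⟨H.mul_mem (H.mul_mem hh hb.1) (H.inv_mem hh), fun y hy => ?_⟩
  have := (hb.2 _ (hy.conj (H.inv_mem hh))).conj C h
  rwa [show h * (h⁻¹ * y * h⁻¹⁻¹) * h⁻¹ = y by group,
    show h * (b * (h⁻¹ * y * h⁻¹⁻¹) * b⁻¹) * h⁻¹ = h * b * h⁻¹ * y * (h * b * h⁻¹)⁻¹ by group] at this

theorem Om.mem_B (hz : Om H x z) : z ∈ B C hx := by
  have gz := hz.good C hx
  refine ⟨gz.mem, fun y hy => ?_⟩
  have gy := hy.good C hx
  by_cases e : V M y ⊓ V M z = ⊥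
  · rw [R, ← C.cj_V, cj_eq_of_mem_cent (C.pair gy gz e)]
    exact R.refl gy
  · have k := R.conj C (y := y) (z := z) e z
    rw [mul_inv_cancel_right] at k
    exact C.trans (C.conj gy gz.mem) gz gy k (R.symm e)

theorem not_isCyclic [hr : Fact r.Prime] (h2 : r ≠ 2) (hF : PnElem r 3 F (B C hx)) :
    ¬ IsCyclic ↥(F ⊓ 𝐂(V M x)) := by
  obtain ⟨W, h1, hW, hn⟩ : ∃ W : Subgroup G, V M x ≤ W ∧ Nat.card W ∣ 8 ∧ F ≤ 𝐍(W) := by
    by_cases e : F ≤ 𝐍(V M x)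
    · exact ⟨_, le_rfl, hx.card ▸ by norm_num, e⟩
    obtain ⟨f, hf, hf'⟩ := SetLike.not_le_iff_exists.mp e
    have hy := (Om.self H x).conj (hF.le hf).1
    have gy := hy.good C hx
    have k1 : R M x (f * x * f⁻¹) := ((hF.le hf).2 x (Om.self H x)).symm
    have k2 : V M x ≠ V M (f * x * f⁻¹) := fun k => hf' (cj_eq_iff.mp (by rw [C.cj_V, ← k]))
    refine ⟨_, le_sup_left, C.card_sup hx gy k1, fun g hg => ?_⟩
    have hg' := hF.le hg
    refine mem_normalizer_of_conj_mem (cj_le_iff.mp ?_)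
    rw [cj_sup, C.cj_V, C.cj_V]
    refine sup_le (C.triple hx gy (C.conj hx hg'.1) k1 k2 (hg'.2 x (Om.self H x)).symm)
      (C.triple hx gy (C.conj gy hg'.1) k1 k2 ?_)
    exact C.trans hx gy (C.conj gy hg'.1) k1 (hg'.2 _ hy).symm
  intro hc
  have k1 := small_cent h2 hF.isPGroup hW hn
  have k2 := prank_le_add_of_relIndex_le (p := r) (n := 1) (k1.trans (pow_one r).ge)
  have k3 := prank_le_one_of_isCyclic (p := r)
    (isCyclic_of_le hc (le_inf inf_le_right (inf_le_left.trans (cent_anti h1)) : 𝐂(W) ⊓ F ≤ _))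
  rw [hF.prank_eq] at k2
  omega

theorem exists_conj_mem (h3 : IsPGroup 3 (zpowers x)) (hP : IsSyl 3 P (B C hx)) (hy : Om H x y) :
    ∃ b ∈ B C hx, b * y * b⁻¹ ∈ P := by
  have := Fact.mk Nat.prime_three
  have k : IsPGroup 3 (zpowers y) := by
    obtain ⟨g, -, rfl⟩ := hy
    rw [← cj_zpowers]; exact isPGroup_cj.mpr h3
  obtain ⟨b, hb, k1⟩ := hP.exists_conj_le k (zpowers_le.mpr (hy.mem_B C hx))
  exact ⟨b, hb, cj_le_iff.mp k1 y (mem_zpowers y)⟩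

theorem mem_B_of (h3 : IsPGroup 3 (zpowers x)) (hP : IsSyl 3 P (B C hx)) (hh : h ∈ H)
    (k : ∀ a ∈ P, Om H x a → R M (h * a * h⁻¹) a) : h ∈ B C hx := by
  refine ⟨hh, fun y hy => ?_⟩
  obtain ⟨b, hb, k1⟩ := exists_conj_mem C hx h3 hP hy
  have ha := hy.conj hb.1
  have k2 := hb.2 y hy
  exact C.trans ((hy.conj hh).good C hx) ((ha.conj hh).good C hx) (hy.good C hx) (k2.conj C h).symm
    (C.trans ((ha.conj hh).good C hx) (ha.good C hx) (hy.good C hx) (k _ k1 ha) k2)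

theorem le_B_of_nrm (h3 : IsPGroup 3 (zpowers x)) (hP : IsSyl 3 P H) (hE : E ⊲ P)
    (hc : IsMulCommutative E) : E ≤ B C hx := fun f hf => by
  have := Fact.mk Nat.prime_three
  have hfH := hP.le (hE.le hf)
  refine mem_B_of C hx h3 (hP.inf_normal (B_nrm C hx).le (B_nrm C hx).norm) hfH fun a ha hoa => ?_
  intro e
  have ga := hoa.good C hx
  have e' : V M a ⊓ V M (f⁻¹ * a * f⁻¹⁻¹) = ⊥ := by
    by_contra e1
    have := R.conj C (y := a) (z := f⁻¹ * a * f⁻¹⁻¹) e1 f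
    rw [show f * (f⁻¹ * a * f⁻¹⁻¹) * f⁻¹ = a by group] at this
    exact this e
  rw [inf_comm] at e
  have k1 := C.pair ga (C.conj ga hfH) e
  have k2 := C.pair ga (C.conj ga (H.inv_mem hfH)) e'
  have k3 : a * f⁻¹ * a⁻¹ ∈ E := (mem_normalizer_iff.mp (hE.norm ha.1) _).mp (E.inv_mem hf)
  have k4 := mul_comm_of_isComm hc hf k3
  have k5 : a ∈ 𝐍(𝐂(V M a)) :=
    normalizer_le_normalizer_centralizer _ (Ctx.mem_norm le_rfl (C.V_le a))
  have k6 := (mem_normalizer_iff.mp (inv_mem k5) _).mp k2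
  have k7 := 𝐂(V M a).mul_mem (cent_anti (C.V_le a) ga.cube) (𝐂(V M a).inv_mem (𝐂(V M a).mul_mem k1 k6))
  refine C.not_mem_cent ga ?_
  rwa [show f * a * f⁻¹ * (a⁻¹ * (f⁻¹ * a * f⁻¹⁻¹) * a⁻¹⁻¹) = f * (a * f⁻¹ * a⁻¹) * (f⁻¹ * a * f * a) by group,
    k4, show a ^ 3 * (a * f⁻¹ * a⁻¹ * f * (f⁻¹ * a * f * a))⁻¹ = a by group] at k7

theorem exists_rank_three (h3 : IsPGroup 3 (zpowers x)) {p : ℕ} [hp : Fact p.Prime]
    (hE : PnElem p 3 E H) : ∃ (r : ℕ) (F : Subgroup G), r.Prime ∧ r ≠ 2 ∧ PnElem r 3 F (B C hx) := by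
  have := Fact.mk Nat.prime_three
  obtain ⟨P, hP⟩ := exists_isSyl 3 H
  by_cases hr : rank P ≤ 2
  swap
  · rw [rank2_SCN3_empty hP.isPGroup (odd_card_of_le C.odd hP.le)] at hr
    push Not at hr
    obtain ⟨A, hA⟩ := hr
    obtain ⟨F, hF, hn⟩ := hA.exists_pnElem_nrm hP.isPGroup
    exact ⟨3, F, Nat.prime_three, by norm_num, hF.of_le (le_B_of_nrm C hx h3 hP hn hF.isComm)⟩
  have hp2 : p ≠ 2 := ne_two_of_odd C.odd (hE.dvd_card (by norm_num))
  have hp3 : p ≠ 3 := by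
    rintro rfl
    have := hE.le_prank
    rw [← rank_Sylow hP] at this
    omega
  have hn := B_nrm C hx
  have hR := hP.inf_normal hn.le hn.norm
  refine ⟨p, E, hp.out, hp2, hE.of_le (le_of_coprime_relIndex hn.norm hE.le ?_)⟩
  rw [hE.card]
  refine Nat.Coprime.pow_left 3 ((Nat.Prime.coprime_iff_not_dvd hp.out).mpr fun hd => ?_)
  rw [(hR.isProd_frattini hn).relIndex_eq] at hd
  have hc : 𝐂(P ⊓ B C hx) ⊓ H ≤ B C hx := fun c hc =>
    mem_B_of C hx h3 hR hc.2 fun a ha hoa => by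
      rw [mem_C1_iff_conj.mp (cent_le_C1 ha hc.1)]
      exact R.refl (hoa.good C hx)
  have hd' : p ∣ 𝐂(P ⊓ B C hx).relIndex (H ⊓ 𝐍(P ⊓ B C hx)) := by
    refine hd.trans ?_
    rw [← inf_relIndex_right 𝐂(P ⊓ B C hx)]
    exact relIndex_dvd_of_le_left _ ((inf_le_inf_left _ inf_le_left).trans hc)
  have := (pi_Aut_rank2_pgroup hR.isPGroup (odd_card_of_le C.odd (inf_le_left.trans hP.le))
    ((rank_mono inf_le_left).trans hr) inf_le_right hp.out hd' hp3).2.1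
  have := hp.out.two_le
  omega

theorem main [Group.IsSolvable G] [M.Normal] (hM : IsElementaryAbelian 2 M) {p : ℕ} (hp : p.Prime)
    (hp2 : p ≠ 2) (hE : IsElementaryAbelian p E) (hE3 : Nat.card E = p ^ 3) {Q : Subgroup G}
    (hQc : IsCyclic Q) (hQ3 : IsPGroup 3 Q) (hQ1 : ∀ x ∈ Q, x ^ 3 ∈ 𝐂(M)) (hQM : Nat.card ↥⁅Q, M⁆ = 4) :
    ∃ (r : ℕ) (F : Subgroup G), r.Prime ∧ r ≠ 2 ∧ IsElementaryAbelian r F ∧ Nat.card F = r ^ 3 ∧
      ¬ IsCyclic ↥(F ⊓ 𝐂(⁅Q, M⁆)) := by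
  have := Fact.mk hp
  have := Fact.mk Nat.prime_two
  have := Fact.mk Nat.prime_three
  obtain ⟨x, rfl⟩ := isCyclic_iff_zpowers.mp hQc
  have hs : Group.IsSolvable (⊤ : Subgroup G) := inferInstance
  obtain ⟨H, hH, hQH⟩ := Hall_superset (π := {2}ᶜ) hs le_top
    (isPi_compl_iff.mpr (not_dvd_card_of_isPGroup hQ3 (by norm_num)))
  obtain ⟨g, -, hg⟩ := Hall_Jsub hs hH le_top
    (isPi_compl_iff.mpr (not_dvd_card_of_isPGroup (abelem_isPGroup hE) hp2.symm))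
  have C : Ctx M H := ⟨inferInstance, hM, by
    rw [← Nat.not_even_iff_odd, even_iff_two_dvd]; exact isPi_compl_iff.mp hH.isPi⟩
  have hx : Good M H x := ⟨hQH (mem_zpowers x), hQ1 x (mem_zpowers x), hQM⟩
  obtain ⟨r, F, hr, hr2, hF⟩ := exists_rank_three C hx hQ3
    ((PnElem.cj (⟨le_rfl, hE, hE3⟩ : PnElem p 3 E E) g).mono hg)
  have := Fact.mk hr
  exact ⟨r, F, hr, hr2, hF.ab, hF.card, not_isCyclic C hx hr2 hF⟩

end Cfsg.Agent.Four
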